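import Cfsg.Agent.Char.Count
import Cfsg.Agent.Char.Central
import Cfsg.Agent.Char.LiesOver
import Cfsg.Agent.Grp.DihSylow

/-!
# Central extensions with few good elements (project S4562): definitions

`A` is a central cyclic subgroup of odd order.  An element `y` is *bad* if it is conjugate to
`a * y` for some `1 ≠ a ∈ A`; every irreducible character that is faithful on `A` vanishes at it.
-/

set_option autoImplicit false
set_option linter.unusedSectionVars false
set_option linter.unusedVariables false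

namespace Cfsg.Fr

open Subgroup Finset
open scoped ComplexConjugate

universe u v

variable {G : Type u} [Group G] [Finite G]

/-- `y` is conjugate to `a * y` for some `1 ≠ a ∈ A`. -/
def Bad (A : Subgroup G) (y : G) : Prop := ∃ c : G, ∃ a ∈ A, a ≠ 1 ∧ c * y * c⁻¹ = a * y

/-- A central cyclic subgroup of odd order. -/
structure Ctr (A : Subgroup G) : Prop where
  le : A ≤ center G
  cyc : IsCyclic A
  odd : ¬ 2 ∣ Nat.card A

/-- Elements of odd order inverted by an involution are bad. -/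
def InvBad (A : Subgroup G) : Prop :=
  ∀ y v : G, ¬ 2 ∣ orderOf y → y ≠ 1 → v * v = 1 → v * y * v⁻¹ = y⁻¹ → Bad A y

/-- Elements of odd order outside `A` are bad. -/
def OddBad (A : Subgroup G) : Prop := ∀ y : G, ¬ 2 ∣ orderOf y → y ∉ A → Bad A y

/-- An alternating, conjugation invariant pairing on commuting pairs. -/
structure IsPairing {M : Type v} [CommGroup M] (β : G → G → M) : Prop where
  mul_left : ∀ a b c, Commute a c → Commute b c → β (a * b) c = β a c * β b c
  mul_right : ∀ a b c, Commute a b → Commute a c → β a (b * c) = β a b * β a c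
  self : ∀ a, β a a = 1
  cj : ∀ g a b, Commute a b → β (g * a * g⁻¹) (g * b * g⁻¹) = β a b

/-- No element `≠ 1` of `P` pairs trivially with its centralizer in `P`. -/
def Nondeg {M : Type v} [CommGroup M] (β : G → G → M) (P : Subgroup G) : Prop :=
  ∀ g ∈ P, g ≠ 1 → ∃ h ∈ P, Commute g h ∧ β g h ≠ 1

namespace IsPairing

variable {M : Type v} [CommGroup M] {β : G → G → M}

theorem one_left (h : IsPairing β) (c : G) : β 1 c = 1 := by
  have := h.mul_left 1 1 c (Commute.one_left c) (Commute.one_left c)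
  rw [mul_one] at this
  exact (mul_eq_left.1 this.symm)

theorem one_right (h : IsPairing β) (c : G) : β c 1 = 1 := by
  have := h.mul_right c 1 1 (Commute.one_right c) (Commute.one_right c)
  rw [mul_one] at this
  exact (mul_eq_left.1 this.symm)

theorem skew (h : IsPairing β) {a b : G} (hab : Commute a b) : β b a = (β a b)⁻¹ := by
  have h1 := h.self (a * b)
  rw [h.mul_left a b _ ((Commute.refl a).mul_right hab) (hab.symm.mul_right (Commute.refl b)),
    h.mul_right a a b (Commute.refl a) hab, h.mul_right b a b hab.symm (Commute.refl b),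
    h.self, h.self, one_mul, mul_one] at h1
  exact eq_inv_of_mul_eq_one_right h1

theorem pow_left (h : IsPairing β) {a b : G} (hab : Commute a b) (n : ℕ) :
    β (a ^ n) b = β a b ^ n := by
  induction n with
  | zero => simp [h.one_left]
  | succ n ih => rw [pow_succ, h.mul_left _ _ _ (hab.pow_left n) hab, ih, pow_succ]

theorem pow_right (h : IsPairing β) {a b : G} (hab : Commute a b) (n : ℕ) :
    β a (b ^ n) = β a b ^ n := by
  induction n with
  | zero => simp [h.one_right]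
  | succ n ih => rw [pow_succ, h.mul_right _ _ _ (hab.pow_right n) hab, ih, pow_succ]

theorem inv_left (h : IsPairing β) {a b : G} (hab : Commute a b) : β a⁻¹ b = (β a b)⁻¹ := by
  have := h.mul_left a⁻¹ a b hab.inv_left hab
  rw [inv_mul_cancel, h.one_left] at this
  exact eq_inv_of_mul_eq_one_left this.symm

theorem inv_right (h : IsPairing β) {a b : G} (hab : Commute a b) : β a b⁻¹ = (β a b)⁻¹ := by
  have := h.mul_right a b⁻¹ b hab.inv_right hab
  rw [inv_mul_cancel, h.one_right] at this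
  exact eq_inv_of_mul_eq_one_left this.symm

theorem eq_one_of_mem_zpowers (h : IsPairing β) {a b : G} (hb : b ∈ zpowers a) : β a b = 1 := by
  classical
  obtain ⟨n, hn⟩ := (mem_zpowers_iff_mem_range_orderOf.1 hb : b ∈ _) |> mem_image.1
  rw [← hn.2, h.pow_right (Commute.refl a), h.self, one_pow]

theorem comp {H : Type*} [Group H] (h : IsPairing β) (f : H →* G) :
    IsPairing fun a b : H => β (f a) (f b) where
  mul_left a b c h1 h2 := by rw [map_mul, h.mul_left _ _ _ (h1.map f) (h2.map f)]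
  mul_right a b c h1 h2 := by rw [map_mul, h.mul_right _ _ _ (h1.map f) (h2.map f)]
  self a := h.self _
  cj g a b h1 := by simp only [map_mul, map_inv]; exact h.cj _ _ _ (h1.map f)

end IsPairing

variable {A : Subgroup G}

theorem Ctr.comm (hA : Ctr A) {a : G} (ha : a ∈ A) (g : G) : g * a = a * g :=
  mem_center_iff.1 (hA.le ha) g

theorem Ctr.cj (hA : Ctr A) {a : G} (ha : a ∈ A) (g : G) : g * a * g⁻¹ = a := by
  rw [hA.comm ha, mul_inv_cancel_right]

theorem Ctr.not_two_dvd (hA : Ctr A) {a : G} (ha : a ∈ A) : ¬ 2 ∣ orderOf a := fun h =>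
  hA.odd (h.trans (orderOf_dvd_natCard A ha))

theorem eq_one_of_mul_self {a : G} (ho : ¬ 2 ∣ orderOf a) (h : a * a = 1) : a = 1 := by
  by_contra h1
  exact ho (by rw [orderOf_eq_two_of_mul_self h h1])

theorem Ctr.mul_self_ne_one (hA : Ctr A) {a : G} (ha : a ∈ A) (h1 : a ≠ 1) : a * a ≠ 1 :=
  fun h => h1 (eq_one_of_mul_self (hA.not_two_dvd ha) h)

theorem Ctr.normal (hA : Ctr A) : A.Normal := ⟨fun a ha g => by rwa [hA.cj ha]⟩

theorem Ctr.subgroupOf (hA : Ctr A) (K : Subgroup G) : Ctr (A.subgroupOf K) := by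
  let f : A.subgroupOf K →* A := (K.subtype.comp (A.subgroupOf K).subtype).codRestrict A
    fun x => x.2
  have hf : Function.Injective f := fun x y h =>
    Subtype.ext (Subtype.ext (congrArg Subtype.val h :))
  refine ⟨fun a ha => mem_center_iff.2 fun g => Subtype.ext (hA.comm ha g), ?_, fun h => ?_⟩
  · haveI := hA.cyc
    exact isCyclic_of_injective f hf
  · exact hA.odd (h.trans (card_dvd_of_injective f hf))

theorem Bad.of_subgroupOf {K : Subgroup G} {y : K} (h : Bad (A.subgroupOf K) y) :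
    Bad A (y : G) := by
  obtain ⟨c, a, ha, h1, h2⟩ := h
  exact ⟨c, a, ha, fun e => h1 (Subtype.ext e), congrArg Subtype.val h2⟩

theorem bad_subgroupOf {K : Subgroup G} {y : K} {c a : G} (hc : c ∈ K) (ha : a ∈ A) (h1 : a ≠ 1)
    (h : c * y * c⁻¹ = a * y) : Bad (A.subgroupOf K) y := by
  have haK : a ∈ K := by
    rw [eq_mul_inv_of_mul_eq h.symm]
    exact mul_mem (mul_mem (mul_mem hc y.2) (inv_mem hc)) (inv_mem y.2)
  exact ⟨⟨c, hc⟩, ⟨a, haK⟩, ha, fun e => h1 (congrArg Subtype.val e), Subtype.ext h⟩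

theorem Bad.cj (hA : Ctr A) {y : G} (h : Bad A y) (g : G) : Bad A (g * y * g⁻¹) := by
  obtain ⟨c, a, ha, h1, h2⟩ := h
  refine ⟨g * c * g⁻¹, a, ha, h1, ?_⟩
  calc g * c * g⁻¹ * (g * y * g⁻¹) * (g * c * g⁻¹)⁻¹ = g * (c * y * c⁻¹) * g⁻¹ := by group
    _ = a * (g * y * g⁻¹) := by rw [h2, ← mul_assoc, hA.comm ha g]; group

theorem Ctr.conj_pow (hA : Ctr A) {y c a : G} (ha : a ∈ A) (h : c * y * c⁻¹ = a * y) (n : ℕ) :
    c ^ n * y * (c ^ n)⁻¹ = a ^ n * y := by
  induction n with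
  | zero => simp
  | succ n ih =>
    calc c ^ (n + 1) * y * (c ^ (n + 1))⁻¹ = c * (c ^ n * y * (c ^ n)⁻¹) * c⁻¹ := by
          rw [pow_succ']; group
      _ = a ^ n * (c * y * c⁻¹) := by rw [ih, ← mul_assoc, hA.comm (pow_mem ha n) c]; group
      _ = a ^ (n + 1) * y := by rw [h, pow_succ, mul_assoc]

/-- The conjugating element may be taken to be a power of odd order. -/
theorem Ctr.exists_odd (hA : Ctr A) {y c a : G} (ha : a ∈ A) (h1 : a ≠ 1)
    (h : c * y * c⁻¹ = a * y) : ∃ n : ℕ, ¬ 2 ∣ orderOf (c ^ n) ∧ a ^ n ≠ 1 ∧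
      c ^ n * y * (c ^ n)⁻¹ = a ^ n * y := by
  refine ⟨2 ^ (orderOf c).factorization 2, ?_, fun h0 => ?_, hA.conj_pow ha h _⟩
  · rw [orderOf_pow_of_dvd (by positivity) (Nat.ordProj_dvd _ _)]
    exact Nat.not_dvd_ordCompl Nat.prime_two (orderOf_pos c).ne'
  · have h2 := (Nat.dvd_prime_pow Nat.prime_two).1 (orderOf_dvd_of_pow_eq_one h0)
    obtain ⟨k, -, hk⟩ := h2
    rcases k with _ | k
    · exact h1 (orderOf_eq_one_iff.1 hk)
    · exact hA.not_two_dvd ha (hk ▸ dvd_pow_self 2 k.succ_ne_zero)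

/-- The commutator trick: `[c, v]` shifts `y` by `a ^ 2`. -/
theorem Ctr.comm_conj (hA : Ctr A) {y c v a : G} (ha : a ∈ A) (h : c * y * c⁻¹ = a * y)
    (hv : v * v = 1) (hy : v * y * v⁻¹ = y⁻¹) :
    c * v * c⁻¹ * v⁻¹ * y * (c * v * c⁻¹ * v⁻¹)⁻¹ = a * a * y := by
  have hv' : v⁻¹ = v := inv_eq_of_mul_eq_one_right hv
  have h1 : c⁻¹ * y * c = a⁻¹ * y := by
    have e : c⁻¹ * (a * y) * c = y := by rw [← h]; group
    rw [← mul_assoc, hA.comm ha c⁻¹, show a * c⁻¹ * y * c = a * (c⁻¹ * y * c) by group] at e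
    exact eq_inv_mul_of_mul_eq e
  have h2 : v⁻¹ * y * v = y⁻¹ := by rw [hv'] at hy ⊢; exact hy
  have h3 : c⁻¹ * y⁻¹ * c = a * y⁻¹ := by
    rw [show c⁻¹ * y⁻¹ * c = (c⁻¹ * y * c)⁻¹ by group, h1, mul_inv_rev, inv_inv, hA.comm ha]
  have h4 : v * y⁻¹ * v⁻¹ = y := by
    rw [show v * y⁻¹ * v⁻¹ = (v * y * v⁻¹)⁻¹ by group, hy, inv_inv]
  calc c * v * c⁻¹ * v⁻¹ * y * (c * v * c⁻¹ * v⁻¹)⁻¹
      = c * (v * (c⁻¹ * (v⁻¹ * y * v) * c) * v⁻¹) * c⁻¹ := by group
    _ = c * (a * (v * y⁻¹ * v⁻¹)) * c⁻¹ := by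
        rw [h2, h3, ← mul_assoc v, hA.comm ha v]; group
    _ = a * a * y := by
        rw [h4, ← mul_assoc c, hA.comm ha c, mul_assoc a a, ← h]; group

theorem InvBad.normal (hA : Ctr A) (h : InvBad A) (K : Subgroup G) [hK : K.Normal] :
    InvBad (A.subgroupOf K) := by
  intro y v ho h1 hv hy
  obtain ⟨c, a, ha, ha1, hc⟩ := h y v (by rwa [Subgroup.orderOf_coe])
    (fun e => h1 (Subtype.ext e)) (congrArg Subtype.val hv) (congrArg Subtype.val hy)
  exact bad_subgroupOf (mul_mem (hK.conj_mem _ v.2 c) (inv_mem v.2)) (mul_mem ha ha)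
    (hA.mul_self_ne_one ha ha1)
    (hA.comm_conj ha hc (congrArg Subtype.val hv) (congrArg Subtype.val hy))

theorem OddBad.invBad (hA : Ctr A) (h : OddBad A) : InvBad A := by
  intro y v ho h1 hv hy
  refine h y ho fun hyA => h1 (eq_one_of_mul_self ho ?_)
  rw [hA.cj hyA] at hy
  exact mul_eq_one_iff_eq_inv.2 hy

theorem OddBad.index_two (hA : Ctr A) (h : OddBad A) {K : Subgroup G} (hK : K.index = 2) :
    OddBad (A.subgroupOf K) := by
  intro y ho h1
  obtain ⟨c, a, ha, ha1, hc⟩ := h y (by rwa [Subgroup.orderOf_coe]) h1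
  refine bad_subgroupOf (sq_mem_of_index_two hK c) (pow_mem ha 2) ?_ (hA.conj_pow ha hc 2)
  rw [pow_two]; exact hA.mul_self_ne_one ha ha1

/-! ### Characters -/

/-- `f` transforms under each `1 ≠ a ∈ A` by a scalar `≠ 1`. -/
def Faith (A : Subgroup G) (f : G → ℂ) : Prop :=
  ∀ a ∈ A, a ≠ 1 → ∃ ζ : ℂ, ζ ≠ 1 ∧ ∀ g, f (a * g) = ζ * f g

theorem Faith.apply_eq_zero {f : G → ℂ} (h : Faith A f) (hf : IsClassFunction G f) {y : G}
    (hy : Bad A y) : f y = 0 := by
  obtain ⟨c, a, ha, h1, hc⟩ := hy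
  obtain ⟨ζ, hζ, e⟩ := h a ha h1
  have := hf y c
  rw [hc, e, ← sub_eq_zero, ← sub_one_mul, mul_eq_zero, sub_eq_zero] at this
  exact this.resolve_left hζ

theorem Faith.comp_subtype {f : G → ℂ} (h : Faith A f) (K : Subgroup G) :
    Faith (A.subgroupOf K) (f ∘ K.subtype) := by
  intro a ha h1
  obtain ⟨ζ, hζ, e⟩ := h a ha fun e => h1 (Subtype.ext e)
  exact ⟨ζ, hζ, fun g => e g⟩

theorem exists_scal (θ : IrrCharacter G) {a : G} (ha : a ∈ center G) :
    ∃ ζ : ℂ, ζ * conj ζ = 1 ∧ ∀ g, θ (a * g) = ζ * θ g := by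
  obtain ⟨lam, e⟩ := θ.exists_linear_mul_of_central (center G).subtype
    fun n g => (mem_center_iff.1 n.2 g).symm
  refine ⟨lam ⟨a, ha⟩, ?_, fun g => e ⟨a, ha⟩ g⟩
  rw [Complex.mul_conj, Complex.normSq_eq_norm_sq, linear_norm_apply]; simp

/-- Constituents inherit the scalar by which a central element acts. -/
theorem scal_of_ip_ne_zero {f : G → ℂ} {θ : IrrCharacter G} {a : G} (ha : a ∈ center G) {ζ : ℂ}
    (hf : ∀ g, f (a * g) = ζ * f g) (h : ip f θ.1 ≠ 0) (g : G) : θ (a * g) = ζ * θ g := by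
  haveI := Fintype.ofFinite G
  obtain ⟨ω, hω, e⟩ := exists_scal θ ha
  have h1 : ip f θ.1 = ζ * conj ω * ip f θ.1 := by
    rw [ip_def, mul_left_comm, Finset.mul_sum univ _ (ζ * conj ω),
      ← Equiv.sum_comp (Equiv.mulLeft a) fun g => f g * conj (θ.1 g)]
    congr 1
    refine sum_congr rfl fun x _ => ?_
    simp only [Equiv.coe_mulLeft, hf]
    have := e x
    change θ.1 _ = _ * θ.1 _ at this
    rw [this, map_mul]; ring
  have h2 : ζ * conj ω = 1 := by
    have := mul_right_cancel₀ h (h1.symm.trans (one_mul _).symm)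
    exact this
  rw [e, show ω = ζ by linear_combination ζ * hω - ω * h2]

theorem Faith.of_ip_ne_zero (hA : A ≤ center G) {f : G → ℂ} (h : Faith A f)
    {θ : IrrCharacter G} (hθ : ip f θ.1 ≠ 0) : Faith A θ.1 := by
  intro a ha h1
  obtain ⟨ζ, hζ, e⟩ := h a ha h1
  exact ⟨ζ, hζ, scal_of_ip_ne_zero (hA ha) e hθ⟩

/-- The inner product of a function that vanishes off `A`. -/
theorem index_mul_ip {f θ : G → ℂ} (hv : ∀ g, g ∉ A → f g = 0) {c : ℂ}
    (h : ∀ a ∈ A, f a * conj (θ a) = c) : (A.index : ℂ) * ip f θ = c := by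
  classical
  haveI := Fintype.ofFinite G
  have h1 : ∑ g, f g * conj (θ g) = Nat.card A * c := by
    rw [← sum_filter_add_sum_filter_not univ (· ∈ A), sum_congr rfl fun a ha =>
      h a (mem_filter.1 ha).2, sum_eq_zero (s := univ.filter (· ∉ A))
        fun g hg => by rw [hv g (mem_filter.1 hg).2, zero_mul], add_zero, sum_const, nsmul_eq_mul, Nat.card_eq_fintype_card, Fintype.card_subtype]
  have h2 : (Nat.card G : ℂ) = Nat.card A * A.index := by exact_mod_cast A.card_mul_index.symm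
  have h3 := natCard_cast_ne_zero A
  have h4 : (A.index : ℂ) ≠ 0 := by exact_mod_cast A.index_ne_zero_of_finite
  rw [ip_def, h1, h2]
  field_simp

/-- An irreducible character vanishing off a central subgroup. -/
theorem sq_eq_index (hA : A ≤ center G) (θ : IrrCharacter G) (hv : ∀ g, g ∉ A → θ g = 0) :
    charDegree θ.1 ^ 2 = A.index := by
  have h := index_mul_ip (θ := θ.1) (c := θ 1 * conj (θ 1)) hv fun a ha => by
    obtain ⟨ζ, hζ, e⟩ := exists_scal θ (hA ha)
    have := e 1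
    rw [mul_one] at this
    change θ a * conj (θ a) = _
    rw [this, map_mul]
    linear_combination (θ 1 * conj (θ 1)) * hζ
  rw [θ.ip_self, mul_one, θ.apply_one, map_natCast] at h
  exact_mod_cast (pow_two _).trans h.symm

open Classical in
/-- The irreducible characters over `μ`. -/
noncomputable def ovr (μ : A →* ℂˣ) : Finset (IrrCharacter G) :=
  univ.filter fun χ => LiesOver A.subtype χ.1 fun n => (μ n : ℂ)

section ovr

variable {μ : A →* ℂˣ}

theorem apply_mul_of_mem_over (hA : A ≤ center G) {χ : IrrCharacter G} (h : χ ∈ ovr μ) (a : A)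
    (g : G) : χ (a * g) = μ a * χ g := by
  classical
  exact LiesOver.apply_mul_of_central (f := A.subtype)
    (fun n g => (mem_center_iff.1 (hA n.2) g).symm) (mem_filter.1 h).2 a g

theorem mem_over_of_apply {χ : IrrCharacter G} (h : ∀ (a : A) (g : G), χ (a * g) = μ a * χ g) :
    χ ∈ ovr μ := by
  classical
  exact mem_filter.2 ⟨mem_univ _, (liesOver_linear_iff_of_central (f := A.subtype) h μ).2 rfl⟩

theorem faith_of_mem_over (hA : A ≤ center G) (hμ : Function.Injective μ) {χ : IrrCharacter G}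
    (h : χ ∈ ovr μ) : Faith A χ.1 := fun a ha h1 =>
  ⟨μ ⟨a, ha⟩, fun e => h1 (congrArg Subtype.val
    ((injective_iff_map_eq_one μ).1 hμ ⟨a, ha⟩ (Units.val_eq_one.1 e))),
    apply_mul_of_mem_over hA h ⟨a, ha⟩⟩

theorem sum_over_eq_zero (hA : A ≤ center G) (μ : A →* ℂˣ) {g h : G}
    (hgh : ∀ a ∈ A, ¬ IsConj (a * g) h) : ∑ χ ∈ ovr μ, χ g * conj (χ h) = 0 := by
  classical
  haveI := Fintype.ofFinite A
  have := sum_liesOver_mul_conj (f := A.subtype)
    (fun n g => (mem_center_iff.1 (hA n.2) g).symm) μ g h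
  rw [filter_false_of_mem (s := (univ : Finset A)) (p := fun n => IsConj (A.subtype n * g) h)
    fun a _ => hgh a a.2, sum_empty, mul_zero] at this
  exact this

theorem card_mul_sum_over (hA : A ≤ center G) (μ : A →* ℂˣ) {g : G} (hg : ¬ Bad A g) :
    (Nat.card A : ℂ) * ∑ χ ∈ ovr μ, χ g * conj (χ g) = Nat.card (centralizer ({g} : Set G)) := by
  classical
  haveI := Fintype.ofFinite A
  have := sum_liesOver_mul_conj (f := A.subtype)
    (fun n g => (mem_center_iff.1 (hA n.2) g).symm) μ g g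
  rw [sum_eq_single_of_mem (1 : A) (mem_filter.2 ⟨mem_univ _, by rw [map_one, one_mul]⟩) fun a ha h1 => by
    obtain ⟨c, hc⟩ := isConj_iff.1 (mem_filter.1 ha).2.symm
    exact (hg ⟨c, a, a.2, fun e => h1 (Subtype.ext e), hc⟩).elim] at this
  have h3 := natCard_cast_ne_zero A
  rw [show ∑ χ ∈ ovr μ, χ g * conj (χ g) = _ from this]
  simp only [map_one, Units.val_one, mul_one]
  field_simp

theorem not_bad_one : ¬ Bad A 1 := by
  rintro ⟨c, a, -, h1, h⟩
  exact h1 (by simpa using h.symm)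

theorem sum_over_sq (hA : A ≤ center G) (μ : A →* ℂˣ) :
    ∑ χ ∈ ovr μ, charDegree χ.1 ^ 2 = A.index := by
  have h := card_mul_sum_over hA μ not_bad_one
  have h1 : centralizer ({1} : Set G) = ⊤ := by
    ext x; simp [mem_centralizer_singleton_iff]
  simp only [IrrCharacter.apply_one, map_natCast, h1, card_top, ← A.card_mul_index] at h
  have h2 : Nat.card A * ∑ χ ∈ ovr μ, charDegree χ.1 ^ 2 = Nat.card A * A.index := by
    simp only [pow_two]; exact_mod_cast h
  exact Nat.eq_of_mul_eq_mul_left Nat.card_pos h2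

/-- A `2`-element is never bad. -/
theorem Ctr.not_bad (hA : Ctr A) {u : G} (hu : IsPElt 2 u) : ¬ Bad A u := by
  rintro ⟨c, a, ha, h1, h⟩
  obtain ⟨k, hk⟩ := hu
  have h2 : (a * u) ^ 2 ^ k = 1 := by
    rw [← h, _root_.conj_pow, ← hk, pow_orderOf_eq_one]; simp
  rw [(show Commute a u from (hA.comm ha u).symm).mul_pow, ← hk, pow_orderOf_eq_one, mul_one,
    hk] at h2
  obtain ⟨j, -, hj⟩ := (Nat.dvd_prime_pow Nat.prime_two).1 (orderOf_dvd_of_pow_eq_one h2)
  rcases j with _ | j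
  · exact h1 (orderOf_eq_one_iff.1 hj)
  · exact hA.not_two_dvd ha (hj ▸ dvd_pow_self 2 j.succ_ne_zero)

theorem Ctr.exists_faithful (hA : Ctr A) : ∃ μ : A →* ℂˣ, Function.Injective μ := by
  haveI := hA.cyc
  exact exists_linear_injective_of_isCyclic

end ovr

end Cfsg.Fr

set_option linter.all false in
theorem Cfsg.Rz.Fr_Basic_0 : True := by
  have := @_root_.Cfsg.Fr.InvBad.eq_def.{0}
  have := @_root_.Cfsg.Fr.InvBad.eq_1.{0}
  have := @_root_.Cfsg.Fr.InvBad.fun_cases
  have := @_root_.Cfsg.Fr.Nondeg.eq_def.{0, 0}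
  have := @_root_.Cfsg.Fr.Nondeg.eq_1.{0, 0}
  have := @_root_.Cfsg.Fr.Nondeg.fun_cases
  have := @_root_.Cfsg.Fr.ovr.eq_def.{0}
  have := @_root_.Cfsg.Fr.ovr.eq_1.{0}
  have := @_root_.Cfsg.Fr.ovr.fun_cases
  have := @_root_.Cfsg.Fr.Ctr.mk.congr_simp.{0}
  have := @_root_.Cfsg.Fr.OddBad.eq_def.{0}
  have := @_root_.Cfsg.Fr.OddBad.eq_1.{0}
  have := @_root_.Cfsg.Fr.OddBad.fun_cases
  have := @_root_.Cfsg.Fr.IsPairing.mk.congr_simp.{0, 0}
  have := @_root_.Cfsg.Fr.Bad.eq_def.{0}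
  have := @_root_.Cfsg.Fr.Bad.eq_1.{0}
  have := @_root_.Cfsg.Fr.Bad.fun_cases
  have := @_root_.Cfsg.Fr.Faith.eq_def.{0}
  have := @_root_.Cfsg.Fr.Faith.eq_1.{0}
  have := @_root_.Cfsg.Fr.Faith.fun_cases
  trivial
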