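import Cfsg.Agent.Fr.Basic
import Cfsg.Agent.Grp.SmallTwo

/-!
# Nonabelian groups of order 16 with a nondegenerate pairing
-/

set_option autoImplicit false
set_option linter.unusedSectionVars false

namespace Cfsg.Fr

open Subgroup

universe u v

local notation "C(" Q ")" => Subgroup.centralizer ((Q : Subgroup _) : Set _)
local notation "N(" Q ")" => Subgroup.normalizer ((Q : Subgroup _) : Set _)

variable {G : Type u} [Group G] [Finite G] {M : Type v} [CommGroup M] {β : G → G → M}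
  {P : Subgroup G}

theorem exists_comm_eight (h16 : Nat.card G = 16) :
    ∃ B : Subgroup G, Nat.card B = 8 ∧ B ≤ C(B) := by
  have h : IsPGroup 2 G := IsPGroup.of_card (n := 4) h16
  obtain ⟨A, _, -, -, r₁, c₁⟩ := IsPGroup.exists_normal_relIndex_above h (L := ⊥) (K := ⊤)
    (bot_lt_iff_ne_bot.2 fun e => by rw [← card_top, e, card_bot] at h16; omega)
  rw [relIndex_bot_left] at r₁
  obtain ⟨D, _, hle, -, r₂, c₂⟩ := IsPGroup.exists_normal_relIndex_above h (L := A) (K := ⊤)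
    (lt_top_iff_ne_top.2 fun e => by rw [← card_top, ← e] at h16; omega)
  have r₃ : Nat.card D = 4 := by rw [← card_mul_relIndex hle, r₁, r₂]
  obtain ⟨g, hg, hg'⟩ := SetLike.not_le_iff_exists.1 fun e : D ≤ A => by
    have := card_le_of_le e; omega
  have hA : ∀ a ∈ A, ∀ v, v * a = a * v := fun a ha v =>
    (commutator_eq_bot_iff_le_centralizer.1 (le_bot_iff.1 c₁) ha v (mem_top v))
  have I : Idx2 (centralizer {g}) ⊤ := ⟨le_top, fun v _ w _ hv hw => by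
    have k : ∀ v : G, g * v * g⁻¹ * v⁻¹ ∈ A := fun v => c₂ (commutator_mem_commutator hg (mem_top v))
    have k' : ∀ v : G, v ∉ centralizer {g} → g * v * g⁻¹ * v⁻¹ ∉ (⊥ : Subgroup G) := fun v hv e =>
      hv (mem_centralizer_singleton_iff.2 (by
        rw [mem_bot, mul_inv_eq_one, mul_inv_eq_iff_eq_mul] at e; exact e.symm))
    have e := mem_bot.1 ((idx2_of_card bot_le (by rw [r₁, card_bot])).mul _ (k v) _ (k w) (k' v hv)
      (k' w hw))
    rw [mem_centralizer_singleton_iff, eq_comm, ← mul_inv_eq_iff_eq_mul]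
    calc _ = g * v * g⁻¹ * v⁻¹ * (v * (g * w * g⁻¹ * w⁻¹)) * w := by group
      _ = _ := by rw [hA _ (k w), ← mul_assoc, e, one_mul]⟩
  have J := idx2_of_card hle (by omega)
  have hD : ∀ b ∈ centralizer {g}, b ∈ C(D) := fun b hb => J.mem_cent hg hg'
    (fun a ha => (hA a ha b).symm) (mem_centralizer_singleton_iff.1 hb).symm
  have hD' : D ≤ centralizer {g} := fun d hd => mem_centralizer_singleton_iff.2
    (hD g (mem_centralizer_singleton_iff.2 rfl) d hd)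
  obtain ⟨K, hK, hK'⟩ := Sylow.exists_subgroup_card_pow_prime_le 2 (n := 2) (m := 3) (by
    have h1 := I.card_le
    have h2 := card_subgroup_dvd_card (centralizer ({g} : Set G))
    rw [card_top, h16] at h1
    rw [h16] at h2
    have := Nat.le_of_dvd (by norm_num) h2
    generalize Nat.card (centralizer ({g} : Set G)) = n at *
    interval_cases n <;> omega) (D.subgroupOf (centralizer {g}))
    (by rw [card_subgroupOf_of_le hD', r₃]; rfl) (by norm_num)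
  have h8 : Nat.card (K.map (centralizer {g}).subtype) = 8 := by rw [card_map_subtype, hK]; rfl
  exact ⟨_, h8, (idx2_of_card (map_subgroupOf_eq_of_le hD' ▸ map_mono hK') (by omega)).le_cent
    (le_centralizer_iff.1 fun b hb => hD b (map_subtype_le _ hb))⟩

theorem exists_isZ4 (hβ : IsPairing β) (h16 : Nat.card P = 16) (hna : ¬ P ≤ C(P))
    (hnd : Nondeg β P) : ∃ z, IsZ4 P z := by
  obtain ⟨B, h8, hB⟩ := exists_comm_eight h16
  replace hB : B.map P.subtype ≤ C(B.map P.subtype) := by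
    rintro _ ⟨a, ha, rfl⟩ _ ⟨b, hb, rfl⟩
    exact congrArg Subtype.val (hB ha b hb)
  rw [← card_map_subtype] at h8
  have hle := map_subtype_le B
  generalize B.map P.subtype = B at *
  have I := idx2_of_card hle (by omega)
  have hP : IsPGroup 2 P := IsPGroup.of_card (n := 4) h16
  have h1 : ∀ b ∈ B, b * b ∈ C(P) := fun b hb => by
    by_contra e
    obtain ⟨c, hc, c1, c2⟩ := hnd _ (hle (mul_mem hb hb)) fun e' => e (e' ▸ one_mem _)
    have c3 : c ∈ B := by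
      by_contra c3
      exact e (I.mem_cent hc c3 (hB (mul_mem hb hb)) c1.symm)
    have c4 : Commute b c := hB c3 b hb
    have c5 := (idx2_of_card (zpowers_le.2 hb) (by
      have := four_le_orderOf (isPElt_of_mem hP (hle hb)) fun e' => e (e' ▸ one_mem _)
      rw [Nat.card_zpowers]; omega)).sq_mem c3
    rw [hβ.mul_left _ _ _ c4 c4, ← hβ.mul_right _ _ _ c4 c4, hβ.eq_one_of_mem_zpowers c5] at c2
    exact c2 rfl
  obtain ⟨y, hy, hy'⟩ := SetLike.not_le_iff_exists.1 fun e : P ≤ B => by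
    have := card_le_of_le e; omega
  have h2 : ∀ b ∈ B, ∃ d ∈ P ⊓ C(P), d * d = 1 ∧ y * b * y⁻¹ = b * d := fun b hb => by
    have a1 := I.conj_mem hy hb
    have a2 := conj_eq_of_mem_cent (h1 b hb) hy
    have a3 := conj_eq_of_mem_cent (hB hb) (I.sq_mem hy)
    have a4 := hB hb _ a1
    have a5 : b⁻¹ * (y * b * y⁻¹) * (b⁻¹ * (y * b * y⁻¹)) = 1 := by
      rw [← conj_mul] at a2
      rw [(show Commute b _ from a4.symm).inv_left.symm.mul_mul_mul_comm, a2]; group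
    refine ⟨_, ⟨hle (mul_mem (inv_mem hb) a1), I.mem_cent hy hy' (hB (mul_mem (inv_mem hb) a1))
      (conj_eq_iff_comm.1 ?_)⟩, a5, by group⟩
    calc _ = (y * b * y⁻¹)⁻¹ * (y * y * b * (y * y)⁻¹) := by group
      _ = (b⁻¹ * (y * b * y⁻¹))⁻¹ := by rw [a3]; group
      _ = _ := inv_eq_of_mul_eq_one_right a5
  obtain ⟨b, hb, hb'⟩ := SetLike.not_le_iff_exists.1 fun e => hna (I.le_cent e)
  obtain ⟨z, hz, z2, e⟩ := h2 b hb
  have z1 : z ≠ 1 := fun e' => hb' (I.mem_cent hy hy' (hB hb)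
    (conj_eq_iff_comm.1 (by rw [e, e', mul_one])))
  have h3 : Nat.card (zpowers z) = 2 := by rw [Nat.card_zpowers, orderOf_eq_two_of_mul_self z2 z1]
  have h4 := card_dvd_of_le (zpowers_le.2 hz)
  have h5 := Nat.card_pos (α := (P ⊓ C(P) : Subgroup G))
  rw [h3] at h4
  refine ⟨z, (I.isD2 hB hz.1 z1 z2 hz.2 hy hy' (fun a ha => ?_) hna).isZ4 (by omega)⟩
  by_cases h6 : 4 ≤ Nat.card (P ⊓ C(P) : Subgroup G)
  · refine (em (a ∈ C(P))).imp (conj_eq_of_mem_cent · hy) fun a1 => ?_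
    have a2 := ((idx2_of_card (A := P ⊓ C(P)) (P := B) (fun c hc => by
      by_contra c1
      exact hb' (I.mem_cent hc.1 c1 (hB hb) (hc.2 b (hle hb)).symm)) (by omega)).inv_mul hb ha
      (hb' ·.2) (a1 ·.2)).2
    rw [← mul_inv_cancel_left b a, ← conj_mul, e, conj_eq_of_mem_cent a2 hy, mul_assoc,
      a2 z hz.1, ← mul_assoc]
  · obtain ⟨d, hd, -, e'⟩ := h2 a ha
    rw [e']
    exact (eq_one_or_eq_of_mem_zpowers_of_orderOf_two (orderOf_eq_two_of_mul_self z2 z1)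
      ((eq_of_le_of_card_ge (zpowers_le.2 hz) (by omega)).ge hd)).imp (by simp) (by simp)

variable {z c u x y : G}

theorem card_cent (h : IsZ4 P z) (h16 : Nat.card P = 16) : Nat.card (P ⊓ C(P) : Subgroup G) = 4 := by
  obtain ⟨a, ha, ha'⟩ := SetLike.not_le_iff_exists.1 h.nc
  have := h.card_eq' ha ha'
  omega

theorem mem_zpowers_z (h : IsZ4 P z) : u ∈ zpowers z ↔ u = 1 ∨ u = z :=
  ⟨eq_one_or_eq_of_mem_zpowers_of_orderOf_two (orderOf_eq_two_of_mul_self h.sq h.ne),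
    fun e => e.elim (· ▸ one_mem _) (· ▸ mem_zpowers z)⟩

theorem idx2_z (h : IsZ4 P z) (h16 : Nat.card P = 16) : Idx2 (zpowers z) (P ⊓ C(P)) :=
  idx2_of_card (zpowers_le.2 ⟨h.mem, h.cent⟩) (by
    rw [card_cent h h16, Nat.card_zpowers, orderOf_eq_two_of_mul_self h.sq h.ne])

theorem cases_cent (h : IsZ4 P z) (h16 : Nat.card P = 16) (hc : c ∈ P ⊓ C(P)) (c1 : c ≠ 1)
    (c2 : c ≠ z) (hu : u ∈ P ⊓ C(P)) : u = 1 ∨ u = z ∨ u = c ∨ u = c * z := by
  by_cases e : u ∈ zpowers z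
  · rcases (mem_zpowers_z h).1 e with e | e <;> simp [e]
  · rcases (mem_zpowers_z h).1 ((idx2_z h h16).inv_mul hc hu (by simp [mem_zpowers_z h, c1, c2]) e)
      with e | e <;> simp [inv_mul_eq_iff_eq_mul.1 e]

theorem exists_ne_comm (hx : x ∉ C(P)) : ∃ y ∈ P, y * x ≠ x * y := by
  by_contra! e
  exact hx e

theorem exists_cases (hβ : IsPairing β) (h16 : Nat.card P = 16) (hnd : Nondeg β P) (h : IsZ4 P z) :
    (∀ u ∈ P ⊓ C(P), u * u = 1) ∧ ∃ x ∈ P, ∃ y ∈ P, y * x ≠ x * y ∧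
      (x * x = z ∧ y * y = 1 ∨ x * x = 1 ∧ y * y ≠ 1 ∧ y * y ≠ z) := by
  have J := idx2_z h h16
  have cm : ∀ u ∈ P ⊓ C(P), ∀ g ∈ P, Commute u g := fun u hu g hg => (hu.2 g hg).symm
  have b0 : ∀ u ∈ P ⊓ C(P), ∀ g ∈ P, ∀ k ∈ P, β u (g * k) = β u g * β u k := fun u hu g hg k hk =>
    hβ.mul_right _ _ _ (cm u hu g hg) (cm u hu k hk)
  have b1 : ∀ u ∈ P ⊓ C(P), ∀ v ∈ zpowers z, β u v = 1 := fun u hu v hv => by
    rcases (mem_zpowers_z h).1 hv with rfl | rfl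
    · exact hβ.one_right u
    obtain ⟨a, ha, b, hb, e⟩ := h.exists_ne
    have := hβ.cj b u a (cm u hu a ha)
    rwa [conj_eq_of_mem_cent hu.2 hb, h.conj_of_ne hb ha e, b0 u hu a ha v h.mem, mul_eq_left]
      at this
  have b2 : ∀ u ∈ P ⊓ C(P), ∀ v ∈ P ⊓ C(P), β u v = 1 := fun u hu v hv => by
    by_cases e : u ∈ zpowers z
    · rw [hβ.skew (cm v hv u hu.1), b1 v hv u e, inv_one]
    by_cases e' : v ∈ zpowers z
    · exact b1 u hu v e'
    have := J.inv_mul hu hv e e'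
    rw [← mul_inv_cancel_left u v, b0 u hu u hu.1 _ (J.le this).1, hβ.self, b1 u hu _ this, one_mul]
  have b3 : ∀ u ∈ P ⊓ C(P), u * u = 1 := fun u hu => by
    by_contra e
    obtain ⟨g, hg, -, e'⟩ := hnd _ (mul_mem hu.1 hu.1) e
    rw [hβ.mul_left _ _ _ (cm u hu g hg) (cm u hu g hg), ← b0 u hu g hg g hg] at e'
    exact e' (b2 u hu _ ⟨mul_mem hg hg, h.sq_cent hg⟩)
  have b5 : ∀ g ∈ P, ∀ k ∈ P, k * g ≠ g * k → g * g = k * k → g * g = 1 := fun g hg k hk e e' => by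
    by_contra e1
    have hu : g * g ∈ P ⊓ C(P) := ⟨mul_mem hg hg, h.sq_cent hg⟩
    obtain ⟨a, ha, -, e2⟩ := hnd _ hu.1 e1
    have a1 : ∀ g, β (g * g) g = 1 := fun g => by
      rw [hβ.mul_left _ _ _ (Commute.refl g) (Commute.refl g), hβ.self, one_mul]
    have a2 : ∀ a ∈ P ⊓ C(zpowers g), β (g * g) a = 1 := fun a ha => by
      rcases h.cases g hg (fun e' => e (e' k hk)) a ha.1 (mem_cent_zpowers.1 ha.2) with e3 | e3
      · exact b2 _ hu a ⟨ha.1, e3⟩
      · rw [← b2 _ hu _ ⟨mul_mem hg ha.1, e3⟩, b0 _ hu g hg a ha.1, a1, one_mul]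
    by_cases e3 : a ∈ P ⊓ C(zpowers g)
    · exact e2 (a2 a e3)
    · have := a2 _ ((h.idx2 hg).mul k hk a ha (fun e4 => e (mem_cent_zpowers.1 e4.2)) e3)
      rw [b0 _ hu k hk a ha, e', a1, one_mul, ← e'] at this
      exact e2 this
  refine ⟨b3, ?_⟩
  by_cases H : ∃ y ∈ P, y * y ≠ 1 ∧ y * y ≠ z
  · obtain ⟨y, hy, y1, y2⟩ := H
    obtain ⟨a, ha, e⟩ := exists_ne_comm fun e => y1 (b3 y ⟨hy, e⟩)
    have e1 : a * y * y ≠ y * (a * y) := fun e' => e (mul_right_cancel (e'.trans (mul_assoc _ _ _).symm))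
    have e2 := h.mul_sq ha hy e.symm
    have hu : y * y ∈ P ⊓ C(P) := ⟨mul_mem hy hy, h.sq_cent hy⟩
    rcases cases_cent h h16 hu y1 y2 ⟨mul_mem ha ha, h.sq_cent ha⟩ with e3 | e3 | e3 | e3
    · exact ⟨a, ha, y, hy, e.symm, Or.inr ⟨e3, y1, y2⟩⟩
    · rw [e3, ← h.cent _ hu.1, mul_assoc _ z, h.sq, mul_one] at e2
      exact absurd (b5 y hy _ (mul_mem ha hy) e1 e2.symm) y1
    · exact absurd (b5 y hy a ha e e3.symm) y1
    · rw [e3, mul_assoc _ _ z] at e2
      exact ⟨_, mul_mem ha hy, y, hy, e1.symm, Or.inr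
        ⟨e2.trans (b3 _ (mul_mem hu ⟨h.mem, h.cent⟩)), y1, y2⟩⟩
  · push Not at H
    obtain ⟨x, hx, x1⟩ := exists_sq_ne_one h.nc
    obtain ⟨y, hy, e⟩ := exists_ne_comm fun e => x1 (b3 x ⟨hx, e⟩)
    refine ⟨x, hx, y, hy, e, Or.inl ⟨H x hx x1, ?_⟩⟩
    by_contra y1
    exact x1 (b5 x hx y hy e ((H x hx x1).trans (H y hy y1).symm))

end Cfsg.Fr
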