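import Cfsg.Agent.Fr.SixteenA
import Cfsg.Agent.Grp.ThompsonTransfer

/-!
# Fusion in Sylow subgroups of order 16 with centre a four-group
-/

set_option autoImplicit false
set_option linter.unusedSectionVars false

namespace Cfsg.Fr

open Subgroup

universe u v

local notation "C(" Q ")" => Subgroup.centralizer (SetLike.coe (A := Subgroup _) Q)
local notation "N(" Q ")" => Subgroup.normalizer (SetLike.coe (A := Subgroup _) Q)

variable {G : Type u} [Group G] [Finite G] {P : Sylow 2 G} {z c g u x y : G}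
  (h : IsZ4 (P : Subgroup G) z) (h16 : Nat.card (P : Subgroup G) = 16)
include h h16

theorem norm_le_cent : N((P : Subgroup G)) ≤ C((P : Subgroup G) ⊓ C((P : Subgroup G))) :=
  le_of_forall_isPElt_mem fun q hq n hn hq' => by
    by_cases e : q = 2
    · subst e
      have := ((isPElt_iff_isPGroup_zpowers.1 hq').inf_normalizer_sylow P).le ⟨mem_zpowers n, hn⟩
      exact fun a ha => (ha.2 n this.2).symm
    · exact mem_centralizer_of_card_le_four (P.isPGroup'.to_le inf_le_left) (card_cent h h16).le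
        ⟨h.mem, h.cent⟩ h.ne (mem_normalizer_of_forall_conj_mem fun a ha =>
          ⟨conj_mem_of_mem_normalizer hn ha.1, conj_mem_cent hn ha.2⟩) (h.fix hn)
        (hq'.isPRegular_of_ne e)

theorem conj_eq_of_cent (hu : u ∈ (P : Subgroup G) ⊓ C((P : Subgroup G)))
    (hg : g * u * g⁻¹ ∈ C((P : Subgroup G))) : g * u * g⁻¹ = u := by
  obtain ⟨n, hn, e⟩ := exists_mem_normalizer_conj_eq P hu.2 hg
  rw [← e, ← norm_le_cent h h16 hn u hu, mul_inv_cancel_right]

theorem mem_cent_of_conj (hy : y ∈ (P : Subgroup G)) (hz : g * z * g⁻¹ = z)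
    (hg : g * y * g⁻¹ ∈ C((P : Subgroup G))) : y ∈ C((P : Subgroup G)) := by
  have h1 : (zpowers z ⊔ zpowers y).map (MulAut.conj g).toMonoidHom ≤ C((P : Subgroup G)) := by
    rw [Subgroup.map_sup, ← zpowers_conj, ← zpowers_conj, hz]
    exact sup_le (zpowers_le.2 h.cent) (zpowers_le.2 hg)
  obtain ⟨n, hn, e⟩ := exists_mem_normalizer_map_conj_eq P (X := zpowers z ⊔ zpowers y) (g := g)
    (fun k hk => mem_normalizer_of_forall_conj_mem fun a ha => by
      rcases h.conj k hk a (sup_le (zpowers_le.2 h.mem) (zpowers_le.2 hy) ha) with e | e <;> rw [e]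
      exacts [ha, mul_mem ha (mem_sup_left (mem_zpowers z))])
    ((le_centralizer_iff.1 h1).trans (centralizer_le_normalizer _))
  exact (conj_mem_cent_iff hn).1 (h1 (e ▸ conj_mem_map_conj.2 (mem_sup_right (mem_zpowers y))))

theorem isConj_or (hZ : ∀ u ∈ (P : Subgroup G) ⊓ C((P : Subgroup G)), u * u = 1)
    (hc : c ∈ (P : Subgroup G) ⊓ C((P : Subgroup G))) (c1 : c ≠ 1) (c2 : c ≠ z)
    (hx : x ∈ (P : Subgroup G)) (x2 : x * x = z) (hy : y ∈ (P : Subgroup G)) (y2 : y * y = 1)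
    (e : x * y ≠ y * x) (hg : g * y * g⁻¹ ∈ C((P : Subgroup G))) :
    IsConj z y ∨ IsConj z (y * c) := by
  have y1 : y ∉ C((P : Subgroup G)) := fun e' => e (e' x hx)
  obtain ⟨k, hk, hk'⟩ := exists_map_conj_le_of_not_dvd_relIndex (H := C(zpowers (g * y * g⁻¹)))
    P.isPGroup' (fun e => P.not_dvd_index (e.trans (relIndex_dvd_index_of_le (le_cent_zpowers hg))))
    (isPGroup_map_conj_iff.2 (P.isPGroup'.to_le inf_le_left) :
      IsPGroup 2 (((P : Subgroup G) ⊓ C(zpowers y)).map (MulAut.conj g).toMonoidHom))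
    (map_conj_le_iff.2 fun a ha => mem_cent_zpowers.2 (by
      rw [conj_mul, conj_mul, mem_cent_zpowers.1 ha.2]))
  rw [map_conj_map_conj] at hk'
  have h1 := (idx2_of_card hk' (by rw [card_map_conj, ← h.card_eq hy y1])).sq_mem hx
  rw [x2, mem_map_conj] at h1
  have h2 : IsConj z ((k * g)⁻¹ * z * (k * g)) := isConj_iff.2 ⟨(k * g)⁻¹, by simp⟩
  have h3 : ∀ a ∈ (P : Subgroup G), x * a ≠ a * x → IsConj (a * z) a := fun a ha e =>
    (isConj_iff.2 ⟨x, h.conj_of_ne hx ha e⟩).symm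
  rcases h.cases y hy y1 _ h1.1 (mem_cent_zpowers.1 h1.2) with e1 | e1
  · have := conj_eq_of_cent h h16 (g := (k * g)⁻¹) ⟨h.mem, h.cent⟩ (by simpa using e1)
    refine absurd (mem_cent_of_conj h h16 (g := k * g) hy ?_ ?_) y1
    · conv_lhs => rw [← this]
      group
    · rwa [show k * g * y * (k * g)⁻¹ = k * (g * y * g⁻¹) * k⁻¹ by group,
        conj_eq_iff_comm.2 (mem_cent_zpowers.1 hk)]
  generalize (k * g)⁻¹ * z * (k * g) = a at *
  rw [show a = y * (y * a) by rw [← mul_assoc, y2, one_mul]] at h2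
  rcases cases_cent h h16 hc c1 c2 ⟨mul_mem hy h1.1, e1⟩ with e2 | e2 | e2 | e2 <;> rw [e2] at h2
  · exact Or.inl (by simpa using h2)
  · exact Or.inl (h2.trans (h3 y hy e))
  · exact Or.inr h2
  · rw [← mul_assoc] at h2
    exact Or.inr (h2.trans (h3 _ (mul_mem hy hc.1) fun e' => e (mul_right_cancel (b := c) (by
      rw [mul_assoc, e', mul_assoc, mul_assoc, hc.2 x hx]))))

theorem exists_index_two_dih (hZ : ∀ u ∈ (P : Subgroup G) ⊓ C((P : Subgroup G)), u * u = 1)
    (hx : x ∈ (P : Subgroup G)) (hy : y ∈ (P : Subgroup G)) (e : y * x ≠ x * y) (x2 : x * x = z)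
    (y2 : y * y = 1) : ∃ K : Subgroup G, K.index = 2 := by
  by_contra! H
  have T : ∀ A : Subgroup G, A ≤ P → Nat.card A = 8 → ∀ u, u * u = 1 → ∃ g, g * u * g⁻¹ ∈ A :=
    fun A hA h8 u hu => exists_conj_mem_of_no_index_two H P.not_dvd_index hA (by
      have := card_mul_relIndex hA; rw [h8, h16] at this; omega) hu
  have x1 : x ∉ C((P : Subgroup G)) := fun e' => e (e' y hy)
  obtain ⟨c, hc, c1⟩ := SetLike.not_le_iff_exists.1
    fun e' : (P : Subgroup G) ⊓ C((P : Subgroup G)) ≤ zpowers z => by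
      have := card_le_of_le e'
      rw [card_cent h h16, Nat.card_zpowers, orderOf_eq_two_of_mul_self h.sq h.ne] at this
      omega
  rw [mem_zpowers_z h, not_or] at c1
  have key : ∀ y ∈ (P : Subgroup G), y * y = 1 → x * y ≠ y * x → ∃ u ∈ (P : Subgroup G) ⊓
      C((P : Subgroup G)), IsConj z (y * u) := fun y hy y2 e => by
    obtain ⟨g, hg⟩ := T _ (inf_le_left (b := C(zpowers x)))
      (by have := h.card_eq hx x1; omega) y y2
    refine (isConj_or h h16 hZ hc c1.1 c1.2 hx x2 hy y2 e (g := g) ?_).elim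
      (fun e => ⟨1, one_mem _, by rwa [mul_one]⟩) fun e => ⟨c, hc, e⟩
    refine (h.cases x hx x1 _ hg.1 (mem_cent_zpowers.1 hg.2)).resolve_right fun e1 => h.ne ?_
    have := hZ _ ⟨mul_mem hx hg.1, e1⟩
    rwa [(show Commute _ x from mem_cent_zpowers.1 hg.2).mul_mul_mul_comm, x2, conj_mul, y2, mul_one,
      mul_inv_cancel, mul_one] at this
  have xy2 : x * y * (x * y) = 1 := by rw [h.mul_sq hx hy e, x2, y2, mul_one, h.sq]
  obtain ⟨u, hu, e1⟩ := key y hy y2 e.symm
  obtain ⟨v, hv, e2⟩ := key (x * y) (mul_mem hx hy) xy2 fun e' =>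
    e (mul_left_cancel (a := x) (by rw [e', mul_assoc]))
  have sq : ∀ a ∈ (P : Subgroup G), ∀ u ∈ (P : Subgroup G) ⊓ C((P : Subgroup G)),
      a * u * (a * u) = a * a := fun a ha u hu => by
    rw [(show Commute a u from hu.2 a ha).symm.mul_mul_mul_comm, hZ u hu, mul_one]
  have a1 := (sq y hy u hu).trans y2
  have a2 := (sq _ (mul_mem hx hy) v hv).trans xy2
  have a3 : x * y * v * (y * u) ≠ y * u * (x * y * v) := fun e' => e (by
    have k : ∀ {a b w : G}, Commute a (b * w) → Commute a w → Commute a b := fun h1 h2 => by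
      simpa using h1.mul_right h2.inv_right
    exact k (k (k e' (hu.2 _ (mul_mem (mul_mem hx hy) hv.1))).symm (hv.2 y hy)) (Commute.refl y))
  have ma := mul_mem hy hu.1
  have mb := mul_mem (mul_mem hx hy) hv.1
  generalize y * u = a at *
  generalize x * y * v = b at *
  have a4 : a * b * (a * b) = z := by rw [h.mul_sq ma mb a3, a1, a2, one_mul, one_mul]
  have a5 : orderOf (a * b) = 4 := orderOf_eq_prime_pow (p := 2) (n := 1)
    (by rw [pow_one, pow_two, a4]; exact h.ne)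
    (by rw [show 2 ^ (1 + 1) = 2 * 2 from rfl, pow_mul, pow_two, pow_two, a4, h.sq])
  have a6 : a * (a * b) = b := by rw [← mul_assoc, a1, one_mul]
  have a7 : a ∉ zpowers (a * b) := fun e' => a3 (by
    simpa using ((Commute.refl a).inv_right.mul_right (comm_zpowers e' (mem_zpowers _))).symm.eq)
  have a8 : a ∈ N(zpowers (a * b)) := mem_normalizer_of_forall_conj_mem fun d hd => by
    rcases h.conj a ma d (zpowers_le.2 (mul_mem ma mb) hd) with e' | e' <;> rw [e']
    exacts [hd, mul_mem hd (a4 ▸ mul_mem (mem_zpowers _) (mem_zpowers _))]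
  obtain ⟨g, hg⟩ := T (zpowers a ⊔ zpowers (a * b))
    (sup_le (zpowers_le.2 ma) (zpowers_le.2 (mul_mem ma mb))) (by
      rw [(idx2_zpowers_sup (a1 ▸ one_mem _) a8).card_eq (mem_sup_left (mem_zpowers a)) a7,
        Nat.card_zpowers, a5]) c (hZ c hc)
  have fin : ¬ IsConj z (g * c * g⁻¹) := fun e' => by
    obtain ⟨k, hk⟩ := isConj_iff.1 (e'.trans (isConj_iff.2 ⟨g, rfl⟩).symm)
    exact c1.2 (hk.symm.trans (conj_eq_of_cent h h16 ⟨h.mem, h.cent⟩ (hk ▸ hc.2)))
  have b1 : g * c * g⁻¹ * (g * c * g⁻¹) = 1 := by rw [conj_mul, hZ c hc]; simp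
  have b2 : g * c * g⁻¹ ≠ 1 := mt conj_eq_one_iff.1 c1.1
  generalize g * c * g⁻¹ = d at *
  have I : Idx2 (zpowers z) (zpowers (a * b)) := idx2_of_card
    (zpowers_le.2 (a4 ▸ mul_mem (mem_zpowers _) (mem_zpowers _))) (by
      rw [Nat.card_zpowers, Nat.card_zpowers, a5, orderOf_eq_two_of_mul_self h.sq h.ne])
  rcases (mem_zpowers_sup_iff (a1 ▸ one_mem _) a8).1 hg with e' | e'
  · exact fin (eq_of_orderOf_eq_two_of_mem_zpowers (a4 ▸ mul_mem (mem_zpowers _) (mem_zpowers _)) e'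
      (orderOf_eq_two_of_mul_self h.sq h.ne) (orderOf_eq_two_of_mul_self b1 b2) ▸ IsConj.refl z)
  have b3 : ∀ a ∈ (P : Subgroup G), ∀ b ∈ (P : Subgroup G), b * a ≠ a * b → IsConj z a →
      a * a = 1 → a * d ∉ zpowers z := fun a ha b hb e e1 a1 e2 => by
    rw [show d = a * (a * d) by rw [← mul_assoc, a1, one_mul]] at fin
    rcases (mem_zpowers_z h).1 e2 with e3 | e3 <;> rw [e3] at fin
    · exact fin (by rwa [mul_one])
    · exact fin (e1.trans (isConj_iff.2 ⟨b, h.conj_of_ne hb ha e⟩))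
  refine b3 b mb a ma a3.symm e2 a2 ?_
  have := I.inv_mul (mem_zpowers _) e' (fun e3 => h.ne ?_) (b3 a ma b mb a3 e1 a1)
  · rwa [mul_inv_rev, mul_assoc, inv_mul_cancel_left, inv_eq_of_mul_eq_one_right a2] at this
  · rcases (mem_zpowers_z h).1 e3 with e4 | e4 <;> rw [← a4, e4]
    exacts [one_mul 1, h.sq]

theorem exists_index_two (hZ : ∀ u ∈ (P : Subgroup G) ⊓ C((P : Subgroup G)), u * u = 1)
    (hx : x ∈ (P : Subgroup G)) (hy : y ∈ (P : Subgroup G)) (e : y * x ≠ x * y) (x2 : x * x = 1)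
    (y1 : y * y ≠ 1) (y2 : y * y ≠ z) : ∃ K : Subgroup G, K.index = 2 := by
  have x1 : x ∉ C((P : Subgroup G)) := fun e' => e (e' y hy)
  have I := h.idx2 hx
  have k1 : ∀ a ∈ (P : Subgroup G) ⊓ C(zpowers x), ∃ u ∈ (P : Subgroup G) ⊓ C((P : Subgroup G)),
      a = u ∨ a = x * u := fun a ha =>
    (h.cases x hx x1 a ha.1 (mem_cent_zpowers.1 ha.2)).elim (fun e => ⟨a, ⟨ha.1, e⟩, Or.inl rfl⟩)
      fun e => ⟨_, ⟨mul_mem hx ha.1, e⟩, Or.inr (by rw [← mul_assoc, x2, one_mul])⟩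
  have sq : ∀ a ∈ (P : Subgroup G), ∀ u ∈ (P : Subgroup G) ⊓ C((P : Subgroup G)),
      a * u * (a * u) = a * a := fun a ha u hu => by
    rw [(show Commute a u from hu.2 a ha).symm.mul_mul_mul_comm, hZ u hu, mul_one]
  have y3 : y ∉ (P : Subgroup G) ⊓ C(zpowers x) := fun e' => e (mem_cent_zpowers.1 e'.2)
  have key : ∀ a ∈ (P : Subgroup G), a ∈ (P : Subgroup G) ⊓ C(zpowers x) ↔ a * a = 1 := fun a ha => by
    refine ⟨fun e' => ?_, fun e' => by_contra fun e1 => ?_⟩
    · obtain ⟨u, hu, rfl | rfl⟩ := k1 a e'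
      exacts [hZ a hu, (sq x hx u hu).trans x2]
    · obtain ⟨u, hu, e2 | e2⟩ := k1 _ (I.inv_mul hy ha y3 e1) <;>
        rw [inv_mul_eq_iff_eq_mul.1 e2] at e'
      · exact y1 ((sq y hy u hu).symm.trans e')
      · rw [← mul_assoc y x u, sq _ (mul_mem hy hx) u hu, h.mul_sq hy hx e.symm, x2, mul_one] at e'
        exact y2 ((eq_inv_of_mul_eq_one_left e').trans (inv_eq_of_mul_eq_one_right h.sq))
  refine (exists_normal_index_eq_prime_of_pResidual_ne_top
    (pResidual_ne_top_of_focalSubgroup_ne P fun e' => y3 ((e'.ge.trans (focalSubgroup_le_iff.2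
      fun a ha g hg => ?_)) hy))).imp fun K hK => hK.2
  have : g * a * g⁻¹ ∈ (P : Subgroup G) ⊓ C(zpowers x) ↔ a ∈ (P : Subgroup G) ⊓ C(zpowers x) := by
    rw [key a ha, key _ hg, conj_mul, conj_eq_one_iff]
  by_cases e1 : a ∈ (P : Subgroup G) ⊓ C(zpowers x)
  · exact mul_mem e1 (inv_mem (this.2 e1))
  · exact I.mul_inv ha hg e1 (mt this.1 e1)

end Cfsg.Fr
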