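import Cfsg.Agent.Fr.Basic
import Cfsg.Agent.Grp.Transfer
import Cfsg.Agent.Char.OddOver

/-!
# A group of odd order that is transitive on the involutions and keeps an alternating form

It keeps a quadratic form as well, so the rank is at most two.
-/

set_option autoImplicit false
set_option linter.unusedSectionVars false
set_option linter.unusedVariables false

namespace Cfsg.Fr

open Subgroup Finset

universe u v w

/-- A conjugation invariant set containing one of `k, k⁻¹` for each `k ≠ 1`. -/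
theorem exists_half (K : Type u) [Group K] [Fintype K] (hK : Odd (Nat.card K)) :
    ∃ S : Finset K, (∀ g k, g * k * g⁻¹ ∈ S ↔ k ∈ S) ∧
      ∀ {M : Type v} [CommGroup M] (f : K → M), f 1 * ∏ k ∈ S, (f k * f k⁻¹) = ∏ k, f k := by
  classical
  obtain ⟨n, ⟨e⟩⟩ := Finite.exists_equiv_fin (ConjClasses K)
  let r : K → Fin n := fun k => e (ConjClasses.mk k)
  have hr : ∀ g k, r (g * k * g⁻¹) = r k := fun g k =>
    congrArg e (ConjClasses.mk_eq_mk_iff_isConj.2 (isConj_iff.2 ⟨g, rfl⟩ : IsConj k _).symm)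
  have hr1 : ∀ k, r k = r k⁻¹ → k = 1 := fun k h =>
    eq_one_of_isConj_inv_of_odd_card hK (ConjClasses.mk_eq_mk_iff_isConj.1 (e.injective h))
  refine ⟨univ.filter fun k => r k < r k⁻¹, fun g k => ?_, fun f => ?_⟩
  · simp only [mem_filter, mem_univ, true_and]
    rw [show (g * k * g⁻¹)⁻¹ = g * k⁻¹ * g⁻¹ by group, hr, hr]
  · rw [prod_mul_distrib, ← prod_filter_mul_prod_filter_not univ fun k => r k < r k⁻¹,
      ← prod_filter_mul_prod_filter_not (univ.filter fun k => ¬ r k < r k⁻¹) fun k => k = 1,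
      filter_filter, filter_filter, mul_left_comm]
    congr 2
    · rw [prod_eq_single_of_mem 1 (by simp) fun b hb h => (h (mem_filter.1 hb).2.2).elim]
    · refine prod_bij' (fun k _ => k⁻¹) (fun k _ => k⁻¹) (fun k hk => ?_) (fun k hk => ?_)
        (by simp) (by simp) fun _ _ => rfl
      · simp only [mem_filter, mem_univ, true_and, inv_inv, inv_eq_one] at hk ⊢
        refine ⟨hk.le.not_gt, ?_⟩
        rintro rfl
        simp at hk
      · simp only [mem_filter, mem_univ, true_and, inv_inv] at hk ⊢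
        exact lt_of_le_of_ne (not_lt.1 hk.1) fun h => hk.2 (hr1 k h.symm)

theorem false_of_trans_aux {V : Type u} [CommGroup V] [Finite V] {K : Type w} [Group K] [Finite K]
    {M : Type v} [CommGroup M] (hV : IsPGroup 2 V) (hK : Odd (Nat.card K)) (ρ : K →* MulAut V)
    (b : V →* V →* M) (alt : ∀ x, b x x = 1) (inv : ∀ k x y, b (ρ k x) (ρ k y) = b x y)
    (nd : ∀ x, x ≠ 1 → ∃ y, b x y ≠ 1)
    (htr : ∀ u v : V, u * u = 1 → u ≠ 1 → v * v = 1 → v ≠ 1 → ∃ k, ρ k u = v)
    (h8 : 4 < Nat.card {x : V // x * x = 1}) : False := by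
  classical
  letI := Fintype.ofFinite K
  letI := Fintype.ofFinite V
  have third : ∀ a c : V, ∃ u, u * u = 1 ∧ u ≠ 1 ∧ u ≠ a ∧ u ≠ c ∧ u ≠ a * c := fun a c => by
    by_contra! h
    have h1 : (univ.filter fun x : V => x * x = 1) ⊆ {1, a, c, a * c} := fun x hx => by
      have := h x (mem_filter.1 hx).2
      simp only [mem_insert, mem_singleton]
      tauto
    have h2 := (card_le_card h1).trans card_le_four
    rw [Nat.card_eq_fintype_card, Fintype.card_subtype] at h8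
    omega
  obtain ⟨n, hn⟩ := IsPGroup.iff_card.1 hV
  have hex : ∃ e, ∀ x : V, x ^ 2 ^ e = 1 := ⟨n, fun x => by rw [← hn, pow_card_eq_one']⟩
  obtain ⟨e, he⟩ : ∃ e, Nat.find hex = e + 1 := Nat.exists_eq_succ_of_ne_zero fun h0 => by
    obtain ⟨u, -, hu, -⟩ := third 1 1
    have := Nat.find_spec hex u
    rw [h0] at this
    exact hu (by simpa using this)
  have h1 : ∀ x : V, x ^ 2 ^ e * x ^ 2 ^ e = 1 := fun x => by
    rw [← pow_add, ← mul_two, ← pow_succ, ← he]; exact Nat.find_spec hex x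
  obtain ⟨x₀, hx₀⟩ : ∃ x : V, x ^ 2 ^ e ≠ 1 := not_forall.1 (Nat.find_min hex (by omega))
  let φ : V →* V := powMonoidHom (2 ^ e)
  have hφ : ∀ x, φ x = x ^ 2 ^ e := fun _ => rfl
  have hφρ : ∀ k x, φ (ρ k x) = ρ k (φ x) := fun k x => (map_pow (ρ k) x _).symm
  have skew : ∀ x y, b x y * b y x = 1 := fun x y => by
    have := alt (x * y)
    simp only [map_mul, MonoidHom.mul_apply, alt, one_mul, mul_one] at this
    rwa [mul_comm] at this
  let ω : V →* V →* M := b.comp φ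
  have hω : ∀ x y, ω x y = b x y ^ 2 ^ e := fun x y => by
    change b (x ^ 2 ^ e) y = _
    rw [map_pow, MonoidHom.pow_apply]
  have ω2 : ∀ x y, ω x y * ω x y = 1 := fun x y => by
    change b (φ x) y * b (φ x) y = 1
    rw [← MonoidHom.mul_apply, ← map_mul, hφ, h1, map_one, MonoidHom.one_apply]
  have symm : ∀ x y, ω x y = ω y x := fun x y => by
    have : ω x y * ω y x = 1 := by rw [hω, hω, ← mul_pow, skew, one_pow]
    exact mul_left_cancel ((ω2 x y).trans this.symm)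
  have ωinv : ∀ k x y, ω (ρ k x) (ρ k y) = ω x y := fun k x y => by rw [hω, hω, inv]
  have ω1 : ∀ x y, φ x = 1 → ω x y = 1 := fun x y h => by
    change b (φ x) y = 1
    rw [h, map_one, MonoidHom.one_apply]
  have surj : ∀ u, u * u = 1 → u ≠ 1 → ∃ x, φ x = u := fun u hu hu1 => by
    obtain ⟨k, hk⟩ := htr (φ x₀) u (h1 x₀) hx₀ hu hu1
    exact ⟨ρ k x₀, by rw [hφρ, hk]⟩
  have tot : ∀ x y, ∏ k, ω x (ρ k y) = 1 := fun x y => by
    rw [← map_prod, symm]
    refine ω1 _ _ (by_contra fun h => ?_)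
    obtain ⟨u, hu, hu1, hu2, -⟩ := third (φ (∏ k, ρ k y)) 1
    obtain ⟨g, hg⟩ := htr _ u (h1 _) h hu hu1
    refine hu2 ?_
    rw [← hg, ← hφ, ← hφρ, map_prod (ρ g), ← Equiv.prod_comp (Equiv.mulLeft g) fun k => ρ k y]
    simp only [Equiv.coe_mulLeft, map_mul, MulAut.mul_apply]
  obtain ⟨S, hS, hS'⟩ := exists_half.{w, v} K hK
  let q : V → M := fun x => ∏ k ∈ S, ω x (ρ k x)
  have polar : ∀ x y, q (x * y) = q x * q y * ω x y := fun x y => by
    have e1 := hS' fun k => ω x (ρ k y)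
    rw [tot, map_one, MulAut.one_apply] at e1
    have e2 : ∏ k ∈ S, (ω x (ρ k y) * ω x (ρ k⁻¹ y)) = ω x y :=
      mul_left_cancel (e1.trans (ω2 x y).symm)
    rw [← e2]
    simp only [q, ← prod_mul_distrib]
    refine prod_congr rfl fun k _ => ?_
    have e3 : ω y (ρ k x) = ω x (ρ k⁻¹ y) := by
      rw [symm x, ← ωinv k (ρ k⁻¹ y), ← MulAut.mul_apply, ← map_mul, mul_inv_cancel, map_one,
        MulAut.one_apply]
    simp only [map_mul, MonoidHom.mul_apply, e3]
    simp only [mul_comm, mul_left_comm]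
  have qinv : ∀ g x, q (ρ g x) = q x := fun g x => by
    refine (prod_equiv (MulAut.conj g).toEquiv (fun k => (hS g k).symm) fun k _ => ?_).symm
    change _ = ω (ρ g x) (ρ (g * k * g⁻¹) (ρ g x))
    rw [← MulAut.mul_apply, ← map_mul, inv_mul_cancel_right, map_mul, MulAut.mul_apply, ωinv]
  have const : ∀ x, φ x ≠ 1 → q x = q x₀ := fun x hx => by
    obtain ⟨k, hk⟩ := htr (φ x₀) (φ x) (h1 x₀) hx₀ (h1 x) hx
    have e1 : φ ((ρ k x₀)⁻¹ * x) = 1 := by rw [map_mul, map_inv, hφρ, hk, inv_mul_cancel]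
    have e2 := polar (ρ k x₀) ((ρ k x₀)⁻¹ * x)
    rw [mul_inv_cancel_left, qinv, symm, ω1 _ _ e1,
      show q ((ρ k x₀)⁻¹ * x) = 1 from prod_eq_one fun _ _ => ω1 _ _ e1] at e2
    simpa using e2
  have val : ∀ x y, φ x ≠ 1 → φ y ≠ 1 → φ y ≠ φ x → q x₀ * ω x y = 1 := fun x y hx hy hxy => by
    have e1 := polar x y
    rw [const _ hx, const _ hy, const _ fun h => hxy (mul_left_cancel
      (((map_mul φ x y).symm.trans h).trans (h1 x).symm)), mul_assoc] at e1
    exact mul_eq_left.1 e1.symm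
  obtain ⟨y, hy⟩ := nd (φ x₀) hx₀
  have hy' : ω x₀ y ≠ 1 := hy
  have hy1 : φ y ≠ 1 := fun h => hy' (by rw [symm, ω1 _ _ h])
  have hy2 : φ y ≠ φ x₀ := fun h => hy (by
    rw [← h]
    change ω y y = 1
    rw [hω, alt, one_pow])
  obtain ⟨u, hu, hu1, hu2, hu3, hu4⟩ := third (φ x₀) (φ y)
  obtain ⟨w, rfl⟩ := surj u hu hu1
  have e0 := val x₀ y hx₀ hy1 hy2
  have e1 := val x₀ w hx₀ hu1 hu2
  have e2 := val y w hy1 hu1 hu3
  have e3 := val (x₀ * y) w (fun h => hy2 (mul_left_cancel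
    (((map_mul φ x₀ y).symm.trans h).trans (h1 x₀).symm))) hu1 (by rwa [map_mul])
  rw [map_mul, MonoidHom.mul_apply, ← mul_assoc, e1, one_mul] at e3
  rw [e3, mul_one] at e2
  rw [e2, one_mul] at e0
  exact hy' e0

variable {G : Type u} [Group G] [Finite G] {M : Type v} [CommGroup M] {β : G → G → M}

theorem false_of_trans (hβ : IsPairing β) (P : Sylow 2 G)
    [hab : IsMulCommutative (P : Subgroup G)] (hnd : Nondeg β P)
    (htr : ∀ u ∈ (P : Subgroup G), ∀ v ∈ (P : Subgroup G), orderOf u = 2 → orderOf v = 2 →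
      IsConj u v) (h8 : 4 < Nat.card {x : (P : Subgroup G) // x * x = 1}) : False := by
  obtain ⟨K, hK, hKn, hs⟩ := exists_complement_sylow_normalizer P
  have hc : ∀ x y : (P : Subgroup G), Commute (x : G) y := fun x y =>
    congrArg Subtype.val (hab.is_comm.comm x y)
  letI : CommGroup (P : Subgroup G) := { mul_comm := hab.is_comm.comm }
  let ρ : K →* MulAut (P : Subgroup G) :=
    (normalizerMonoidHom (P : Subgroup G)).comp (inclusion hKn)
  have hρ : ∀ (k : K) (x : (P : Subgroup G)), (ρ k x : G) = k * x * (k : G)⁻¹ := fun _ _ => rfl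
  let b : (P : Subgroup G) →* (P : Subgroup G) →* M :=
    MonoidHom.mk' (fun x => MonoidHom.mk' (fun y => β x y) fun y z =>
      hβ.mul_right _ _ _ (hc x y) (hc x z)) fun x y => MonoidHom.ext fun z =>
      hβ.mul_left _ _ _ (hc x z) (hc y z)
  refine false_of_trans_aux P.isPGroup' (Nat.odd_iff.2 (Nat.two_dvd_ne_zero.1 hK)) ρ b
    (fun x => hβ.self _) (fun k x y => hβ.cj _ _ _ (hc x y)) (fun x hx => ?_)
    (fun u v hu hu1 hv hv1 => ?_) h8
  · obtain ⟨y, hy, -, h⟩ := hnd x x.2 fun e => hx (Subtype.ext e)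
    exact ⟨⟨y, hy⟩, h⟩
  · have hPC := le_centralizer_iff_isMulCommutative.2 hab
    obtain ⟨g, hg⟩ := isConj_iff.1 (htr u u.2 v v.2
      (by rw [Subgroup.orderOf_coe, orderOf_eq_two_of_mul_self hu hu1])
      (by rw [Subgroup.orderOf_coe, orderOf_eq_two_of_mul_self hv hv1]))
    obtain ⟨n, hn, h⟩ := exists_mem_normalizer_conj_eq P (g := g) (hPC u.2) (hg ▸ hPC v.2)
    obtain ⟨k, hk, y, hy, rfl⟩ := (mem_sup_of_le_normalizer hKn).mp (hs ▸ hn)
    refine ⟨⟨k, hk⟩, Subtype.ext ?_⟩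
    rw [hρ, ← hg, ← h, mul_assoc k y, (hc ⟨y, hy⟩ u).eq]
    group

end Cfsg.Fr
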